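import Cfsg.Agent.Lib.Fischer.M24Sylow.Transfer
import Cfsg.Agent.Lib.Fischer.Thirteen.Group
import Cfsg.Agent.Lib.OrderDegrees.G2Three

/-!
Subgroups of order 13 in groups of type M(24): if four members generating two commuting symmetric
groups of degree three have centralizer `G₂(3)`, the normalizer of a subgroup of order 13 of that
centralizer is twice the product of a Frobenius group of order 78 and the two symmetric groups.
-/

set_option autoImplicit false
set_option linter.unusedSectionVars false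
set_option linter.style.haveILetI false

namespace CfsgLib.Fischer.PairTwentyFour.Thirteen

open CfsgLib.Fischer CfsgLib.InvChar.FischerProducts CfsgLib.InvChar.FischerHexad

variable {G : Type*} [Group G] [Finite G] {D : Set G} {B : Subgroup G}
variable (hD : Cfsg.IsThreeTranspositionGroup D) (hprim : Cfsg.IsPrimitiveUnderConj D)
  (ht : Cfsg.IsOfTypeM24 G D)

/-- The three members of a non-commuting pair. -/
def triple (a d : G) : Set G := {a, d, a * d * a}

include hD

theorem triple_subset_D {a d : G} (ha : a ∈ D) (hd : d ∈ D) : triple a d ⊆ D := by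
  rintro z (rfl | rfl | rfl)
  · exact ha
  · exact hd
  · rw [← conj_eq hD.1 ha]; exact hD.2.1 a d hd

theorem triple_subset_closure (a d : G) :
    triple a d ⊆ (Subgroup.closure ({a, d} : Set G) : Set G) := by
  have h1 : a ∈ Subgroup.closure ({a, d} : Set G) := Subgroup.subset_closure (Or.inl rfl)
  have h2 : d ∈ Subgroup.closure ({a, d} : Set G) := Subgroup.subset_closure (Or.inr rfl)
  rintro z (rfl | rfl | rfl)
  exacts [h1, h2, mul_mem (mul_mem h1 h2) h1]

theorem mul_mul_ne {a d : G} (ha : a ∈ D) (hd : d ∈ D) (h : ¬ Commute a d) :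
    a * d * a ≠ a ∧ a * d * a ≠ d := by
  have haa := sq_eq_one hD.1 ha
  refine ⟨fun k => h ?_, fun k => h ?_⟩
  · have h1 : a * d = 1 := mul_right_cancel (k.trans (one_mul a).symm)
    rw [show d = a⁻¹ from eq_inv_of_mul_eq_one_right h1]
    exact (Commute.refl a).inv_right
  · show a * d = d * a
    calc a * d = a * d * a * a := by rw [mul_assoc (a * d), haa, mul_one]
      _ = d * a := by rw [k]

theorem ncard_triple {a d : G} (ha : a ∈ D) (hd : d ∈ D) (h : ¬ Commute a d) :
    (triple a d).ncard = 3 :=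
  Set.ncard_eq_three.2 ⟨a, d, a * d * a, fun e => h (e ▸ Commute.refl a),
    (mul_mul_ne hD ha hd h).1.symm, (mul_mul_ne hD ha hd h).2.symm, rfl⟩

theorem mem_triple_of_mem_closure {a d z : G} (ha : a ∈ D) (hd : d ∈ D) (h : ¬ Commute a d)
    (hz : z ∈ D) (hzc : z ∈ Subgroup.closure ({a, d} : Set G)) : z ∈ triple a d := by
  have h1 : ¬ (a * d) * (a * d) = 1 := fun k => h ((sq_mul_iff hD.1 ha hd).1 (by rwa [pow_two]))
  have h2 : ¬ (d * a) * (d * a) = 1 := fun k =>
    h ((sq_mul_iff hD.1 hd ha).1 (by rwa [pow_two])).symm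
  rcases M22Sylow.closure_pair_subset hD ha hd h z hzc with e | e | e | e | e | e
  · exact absurd e (ne_one hD.1 hz)
  · exact Or.inl e
  · exact Or.inr (Or.inl e)
  · exact absurd (e ▸ sq_eq_one hD.1 hz) h1
  · exact absurd (e ▸ sq_eq_one hD.1 hz) h2
  · exact Or.inr (Or.inr e)

/-- The symmetric group on a triple is doubly transitive on it. -/
theorem exists_move {a d p q : G} (ha : a ∈ D) (hd : d ∈ D) (h : ¬ Commute a d)
    (hp : p ∈ triple a d) (hq : q ∈ triple a d) (hpq : p ≠ q) :
    ∃ t ∈ Subgroup.closure ({a, d} : Set G), t * a * t⁻¹ = p ∧ t * d * t⁻¹ = q := by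
  have hb := braid hD.1 ha hd h
  have haa := sq_eq_one hD.1 ha
  have hdd := sq_eq_one hD.1 hd
  have hai : a⁻¹ = a := inv_eq hD.1 ha
  have hdi : d⁻¹ = d := inv_eq hD.1 hd
  have h1 : a ∈ Subgroup.closure ({a, d} : Set G) := Subgroup.subset_closure (Or.inl rfl)
  have h2 : d ∈ Subgroup.closure ({a, d} : Set G) := Subgroup.subset_closure (Or.inr rfl)
  have k1 : a * (a * d * a) * a = d := by
    rw [show a * (a * d * a) * a = (a * a) * d * (a * a) by group, haa, one_mul, mul_one]
  have k2 : d * (d * a * d) * d = a := by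
    rw [show d * (d * a * d) * d = (d * d) * a * (d * d) by group, hdd, one_mul, mul_one]
  simp only [triple, Set.mem_insert_iff, Set.mem_singleton_iff] at hp hq
  rcases hp with e | e | e <;> rcases hq with e' | e' | e' <;> rw [e, e'] at hpq ⊢
  · exact absurd rfl hpq
  · exact ⟨1, one_mem _, by group, by group⟩
  · exact ⟨a, h1, by rw [hai, haa, one_mul], by rw [hai]⟩
  · refine ⟨a * d * a, mul_mem (mul_mem h1 h2) h1, ?_, ?_⟩
    · rw [show a * d * a * a * (a * d * a)⁻¹ = (a * d) * a * (a * d)⁻¹ by group, mul_inv_rev, hai,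
        hdi, show a * d * a * (d * a) = a * (d * a * d) * a by group, ← hb, k1]
    · rw [hb, show d * a * d * d * (d * a * d)⁻¹ = (d * a) * d * (d * a)⁻¹ by group, mul_inv_rev,
        hai, hdi, show d * a * d * (a * d) = d * (a * d * a) * d by group, hb, k2]
  · exact absurd rfl hpq
  · refine ⟨a * d, mul_mem h1 h2, ?_, ?_⟩
    · rw [mul_inv_rev, hai, hdi, show a * d * a * (d * a) = a * (d * a * d) * a by group, ← hb, k1]
    · rw [mul_inv_rev, hai, hdi, show a * d * d * (d * a) = a * (d * d) * d * a by group, hdd,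
        mul_one]
  · refine ⟨d * a, mul_mem h2 h1, ?_, ?_⟩
    · rw [mul_inv_rev, hai, hdi, show d * a * a * (a * d) = d * (a * a) * a * d by group, haa,
        mul_one, hb]
    · rw [mul_inv_rev, hai, hdi, show d * a * d * (a * d) = d * (a * d * a) * d by group, hb, k2]
  · exact ⟨d, h2, by rw [hdi, hb], by rw [hdi, hdd, one_mul]⟩
  · exact absurd rfl hpq

include hprim ht

/-- A member fixed by a subgroup of order 13 has three fixed neighbours. -/
theorem ncard_local (hB : Nat.card B = 13) {p : G} (hp : p ∈ D)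
    (hpB : p ∈ Subgroup.centralizer (B : Set G)) :
    (perp (D ∩ (Subgroup.centralizer (B : Set G) : Set G)) p).ncard = 3 := by
  haveI : Fact (Nat.Prime 13) := ⟨by norm_num⟩
  obtain ⟨π, hker, hmem, hsurj⟩ := MTwentyFourSylow.exists_proj24 hD hprim ht hp
  obtain ⟨f, hf, hinj, -, -, -⟩ := MTwentyFourSylow.local_transfer hD (p := 13) rfl hB hp hpB π hker
    hmem hsurj (MTwentyFourSylow.mul_notMem24 hD hprim ht)
  have hg := TypeTwentyFour.good_at hD hprim ht hp
  obtain ⟨a', d', ha', hd', had', hE⟩ := CfsgLib.Fischer.Thirteen.exists_triangle hg.tt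
    (TypeTwentyFour.primitive_at hD hprim ht hp) (TypeTwentyFour.type23_at hD hprim ht hp)
    (MTwentyFourSylow.img_card hD (p := 13) rfl hB hp hpB π hker)
  rw [← Set.ncard_image_of_injOn hinj, hf, hE]
  exact ncard_triple hg.tt ha' hd' had'

theorem perp_eq_triple (hB : Nat.card B = 13) {a d b c : G} (hb : b ∈ D) (hc : c ∈ D)
    (hbc : ¬ Commute b c) (hbB : b ∈ Subgroup.centralizer (B : Set G))
    (hcB : c ∈ Subgroup.centralizer (B : Set G)) (ha : a ∈ D) (hd : d ∈ D)
    (haB : a ∈ Subgroup.centralizer (B : Set G)) (hdB : d ∈ Subgroup.centralizer (B : Set G))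
    (hab : Commute a b) (hac : Commute a c) (hdb : Commute d b) (hdc : Commute d c)
    {p : G} (hp : p ∈ triple a d) :
    perp (D ∩ (Subgroup.centralizer (B : Set G) : Set G)) p = triple b c := by
  have hpD := triple_subset_D hD ha hd hp
  have hle : ∀ {x y : G}, x ∈ Subgroup.centralizer (B : Set G) →
      y ∈ Subgroup.centralizer (B : Set G) → triple x y ⊆ (Subgroup.centralizer (B : Set G) : Set G) :=
    fun {x y} hx hy => (triple_subset_closure hD x y).trans ((Subgroup.closure_le _).2 (by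
      rintro z (rfl | rfl)
      exacts [hx, hy]))
  have hcomm : ∀ q ∈ triple b c, Commute p q := fun q hq =>
    commute_of_closure (by
      rintro x (rfl | rfl) y (rfl | rfl) <;> assumption)
      (triple_subset_closure hD a d hp) (triple_subset_closure hD b c hq)
  have hsub : triple b c ⊆ perp (D ∩ (Subgroup.centralizer (B : Set G) : Set G)) p := by
    intro q hq
    refine ⟨⟨triple_subset_D hD hb hc hq, hle hbB hcB hq⟩, fun e => ?_, hcomm q hq⟩
    subst e
    refine hbc ?_
    have h1 := hcomm b (Or.inl rfl)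
    have h2 := hcomm c (Or.inr (Or.inl rfl))
    rcases hq with rfl | rfl | rfl
    · exact h2
    · exact h1.symm
    · have e : b * (b * c * b) = (b * c * b) * b := h1.symm.eq
      show b * c = c * b
      have hbb := sq_eq_one hD.1 hb
      rw [← mul_assoc, ← mul_assoc, hbb, one_mul, mul_assoc, hbb, mul_one] at e
      exact e.symm
  refine (Set.eq_of_subset_of_ncard_le hsub ?_ (Set.toFinite _)).symm
  rw [ncard_local hD hprim ht hB hpD (hle haB hdB hp), ncard_triple hD hb hc hbc]
where
  commute_of_closure {a d b c p q : G}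
      (h : ∀ x ∈ ({a, d} : Set G), ∀ y ∈ ({b, c} : Set G), Commute x y)
      (hp : p ∈ Subgroup.closure ({a, d} : Set G)) (hq : q ∈ Subgroup.closure ({b, c} : Set G)) :
      Commute p q := by
    have h1 : Subgroup.closure ({a, d} : Set G) ≤ Subgroup.centralizer ({b, c} : Set G) :=
      (Subgroup.closure_le _).2 fun x hx y hy => (h x hx y hy).symm.eq
    have h2 : Subgroup.closure ({b, c} : Set G) ≤ Subgroup.centralizer ({p} : Set G) :=
      (Subgroup.closure_le _).2 fun y hy => Subgroup.mem_centralizer_singleton_iff.2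
        (show y * p = p * y from h1 hp y hy)
    exact (Subgroup.mem_centralizer_singleton_iff.1 (h2 hq)).symm

/-- The members fixed by the subgroup of order 13 are the six members of the two triples. -/
theorem fixed_members (hB : Nat.card B = 13) {a b c d : G} (ha : a ∈ D) (hb : b ∈ D) (hc : c ∈ D)
    (hd : d ∈ D) (had : ¬ Commute a d) (hbc : ¬ Commute b c) (hab : Commute a b) (hac : Commute a c)
    (hdb : Commute d b) (hdc : Commute d c) (haB : a ∈ Subgroup.centralizer (B : Set G))
    (hbB : b ∈ Subgroup.centralizer (B : Set G)) (hcB : c ∈ Subgroup.centralizer (B : Set G))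
    (hdB : d ∈ Subgroup.centralizer (B : Set G)) :
    D ∩ (Subgroup.centralizer (B : Set G) : Set G) ⊆ triple a d ∪ triple b c := by
  haveI : Fact (Nat.Prime 13) := ⟨by norm_num⟩
  have hQ : ∀ p ∈ triple a d, perp (D ∩ (Subgroup.centralizer (B : Set G) : Set G)) p = triple b c :=
    fun p hp => perp_eq_triple hD hprim ht hB hb hc hbc hbB hcB ha hd haB hdB hab hac hdb hdc hp
  have hP : ∀ p ∈ triple b c, perp (D ∩ (Subgroup.centralizer (B : Set G) : Set G)) p = triple a d :=
    fun p hp => perp_eq_triple hD hprim ht hB ha hd had haB hdB hb hc hbB hcB hab.symm hdb.symm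
      hac.symm hdc.symm hp
  rintro v ⟨hv, hvB⟩
  have hdP : d ∈ triple a d := Or.inr (Or.inl rfl)
  by_cases hvd : Commute d v
  · by_cases e : v = d
    · exact Or.inl (e ▸ hdP)
    · exact Or.inr ((hQ d hdP).le ⟨⟨hv, hvB⟩, e, hvd⟩)
  have hmod := M22Sylow.ncard_fixed_modEq hB (S := common D d v) fun x hx y hy =>
    PairThree.conj_mem_common hD (hdB x hx) (hvB x hx) hy
  rw [MTwentyFourSylow.mu_eq24 hD hprim ht hd hv hvd] at hmod
  obtain ⟨u, hu, huB⟩ :
      (common D d v ∩ (Subgroup.centralizer (B : Set G) : Set G)).Nonempty := by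
    by_contra hc'
    rw [Set.not_nonempty_iff_eq_empty] at hc'
    rw [hc', Set.ncard_empty] at hmod
    exact absurd hmod (by decide)
  have huQ : u ∈ triple b c := (hQ d hdP).le ⟨⟨hu.1, huB⟩, hu.2.1, hu.2.2.1⟩
  exact Or.inl ((hP u huQ).le ⟨⟨hv, hvB⟩, fun e => hvd (e ▸ hu.2.2.1), hu.2.2.2.symm⟩)

omit hD hprim ht in
/-- An element of `G₂(3)` of order 13 commutes with no element of another prime order. -/
theorem prime_centralizer {K : Subgroup G} (e : ↥K ≃* ↥(Cfsg.Lie.chevG2.group (ZMod 3))) {x z : G}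
    (hx : x ∈ K) (hz : z ∈ K) (hxo : orderOf x = 13) {r : ℕ} (hr : r.Prime) (hzo : orderOf z = r)
    (hxz : Commute x z) : r = 13 := by
  haveI : Fact (Nat.Prime 3) := ⟨Nat.prime_three⟩
  by_contra hne
  refine CfsgLib.OrderDegrees.G2Three.not_orderOf_thirteen_mul (ZMod.card 3) hr hne
    (e ⟨x * z, mul_mem hx hz⟩) ?_
  rw [MulEquiv.orderOf_eq, Subgroup.orderOf_mk, hxz.orderOf_mul_eq_mul_orderOf_of_coprime, hxo, hzo]
  rw [hxo, hzo]
  exact (Nat.coprime_primes (by norm_num) hr).2 (Ne.symm hne)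

omit hD hprim ht in
/-- The normalizer of a subgroup of order 13 in `G₂(3)` is a Frobenius group of order 78. -/
theorem g2_normalizer {K : Subgroup G} (e : ↥K ≃* ↥(Cfsg.Lie.chevG2.group (ZMod 3)))
    (hB : Nat.card B = 13) (hBK : B ≤ K) :
    Nat.card ↥(K ⊓ Subgroup.normalizer (B : Set G)) = 78 ∧
      K ⊓ Subgroup.centralizer (B : Set G) = B := by
  haveI : Fact (Nat.Prime 13) := ⟨by norm_num⟩
  haveI : Fact (Nat.Prime 3) := ⟨Nat.prime_three⟩
  have hK : Nat.card K = 4245696 :=
    (Nat.card_congr e.toEquiv).trans (CfsgLib.OrderDegrees.G2Three.card_eq (ZMod.card 3))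
  have hsqK : ¬ 13 ^ 2 ∣ Nat.card K := by rw [hK]; norm_num
  obtain ⟨x, hxB, hx, hx1, hgen⟩ := M22Sylow.exists_generator hB
  have hxo : orderOf x = 13 := orderOf_eq_prime hx hx1
  have hBC : B ≤ K ⊓ Subgroup.centralizer (B : Set G) :=
    le_inf hBK (M22Sylow.le_centralizer_self hB)
  have hprimes : ∀ {r : ℕ}, r.Prime →
      r ∣ Nat.card ↥(K ⊓ Subgroup.centralizer (B : Set G)) → r = 13 := by
    intro r hr hdvd
    haveI := Fact.mk hr
    obtain ⟨u, hu⟩ := exists_prime_orderOf_dvd_card'
      (G := ↥(K ⊓ Subgroup.centralizer (B : Set G))) r hdvd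
    exact prime_centralizer e (hBK hxB) u.2.1 hxo hr (by rw [Subgroup.orderOf_coe, hu])
      (u.2.2 x hxB)
  have hC : K ⊓ Subgroup.centralizer (B : Set G) = B := by
    have hk := Nat.eq_prime_pow_of_unique_prime_dvd Nat.card_pos.ne' hprimes
    refine (Subgroup.eq_of_le_of_card_ge hBC ?_).symm
    rw [hk, hB]
    by_contra hlt
    refine hsqK ((pow_dvd_pow 13 ?_).trans (hk ▸ Subgroup.card_dvd_of_le inf_le_left))
    by_contra h2
    interval_cases hl : (Nat.card ↥(K ⊓ Subgroup.centralizer (B : Set G))).primeFactorsList.length <;>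
      norm_num at hlt
  refine ⟨?_, hC⟩
  obtain ⟨f, hf, hFe⟩ := M22Sylow.card_eq_mul_of_inf_centralizer hB
    (F := K ⊓ Subgroup.normalizer (B : Set G)) inf_le_right
  rw [inf_assoc, inf_eq_right.2 (Subgroup.centralizer_le_normalizer (B : Set G)), hC, hB] at hFe
  have hB' : Nat.card (B.subgroupOf K) = 13 := by
    rw [Nat.card_congr (Subgroup.subgroupOfEquivOfLe hBK).toEquiv, hB]
  obtain ⟨k, hk, hk1⟩ := M22Sylow.card_normalizer_mul hsqK hB'
  have hnorm : Nat.card (Subgroup.normalizer ((B.subgroupOf K : Subgroup K) : Set K)) =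
      Nat.card ↥(K ⊓ Subgroup.normalizer (B : Set G)) := by
    rw [← Subgroup.subgroupOf_normalizer_eq hBK, ← Subgroup.inf_subgroupOf_left,
      Nat.card_congr (Subgroup.subgroupOfEquivOfLe inf_le_left).toEquiv]
  rw [hnorm, hK] at hk
  exact M22Sylow.index_unique (p := 13) (r := 13) (v := 6) hk hk1 hFe (by norm_num) hf
    (by decide +kernel)

omit hprim ht in
/-- An element sending the pair into the closure of another pair sends its triple into the other
triple. -/
theorem conj_mem_triple {a d b c g : G} (ha : a ∈ D) (hd : d ∈ D) (hb : b ∈ D) (hc : c ∈ D)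
    (hbc : ¬ Commute b c)
    (hga : g * a * g⁻¹ ∈ Subgroup.closure ({b, c} : Set G))
    (hgd : g * d * g⁻¹ ∈ Subgroup.closure ({b, c} : Set G))
    {x : G} (hx : x ∈ Subgroup.closure ({a, d} : Set G)) :
    g * x * g⁻¹ ∈ Subgroup.closure ({b, c} : Set G) := by
  have h : Subgroup.closure ({a, d} : Set G) ≤
      (Subgroup.closure ({b, c} : Set G)).comap (MulAut.conj g).toMonoidHom :=
    (Subgroup.closure_le _).2 (by
      rintro z (rfl | rfl)
      exacts [hga, hgd])
  exact h hx

set_option maxHeartbeats 1000000 in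
/-- The statement on subgroups of order 13, from four members whose centralizer is `G₂(3)`. -/
theorem s5518_of_four {a b c d : G} (ha : a ∈ D) (hb : b ∈ D) (hc : c ∈ D) (hd : d ∈ D)
    (had : ¬ Commute a d) (hbc : ¬ Commute b c) (hab : Commute a b) (hac : Commute a c)
    (hdb : Commute d b) (hdc : Commute d c)
    (he : Nonempty (↥(Subgroup.centralizer
      ((Subgroup.closure ({a, b, c, d} : Set G) : Subgroup G) : Set G)) ≃*
        ↥(Cfsg.Lie.chevG2.group (ZMod 3))))
    (hswap : ∃ g : G, (∀ x ∈ ({a, d} : Set G), g * x * g⁻¹ ∈ Subgroup.closure ({b, c} : Set G)) ∧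
      ∀ x ∈ ({b, c} : Set G), g * x * g⁻¹ ∈ Subgroup.closure ({a, d} : Set G)) :
    (∀ X Y : Subgroup G, Nat.card X = 13 → Nat.card Y = 13 →
      ∃ g : G, X.map (MulAut.conj g).toMonoidHom = Y) ∧
    ∃ (a b c d : G) (T K : Subgroup G), (∀ x ∈ [a, b, c, d], x ∈ D) ∧ ¬ Commute a d ∧ ¬ Commute b c ∧
      Commute a b ∧ Commute a c ∧ Commute d b ∧ Commute d c ∧
      T = Subgroup.closure ({a, b, c, d} : Set G) ∧ K = Subgroup.centralizer (T : Set G) ∧
      Nonempty (↥K ≃* ↥(Cfsg.Lie.chevG2.group (ZMod 3))) ∧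
      ∀ B : Subgroup G, B ≤ K → Nat.card B = 13 →
        Subgroup.normalizer ((B : Subgroup G) : Set G) ≤ Subgroup.normalizer ((K : Subgroup G) : Set G) ∧
        Nat.card ↥(K ⊓ Subgroup.normalizer ((B : Subgroup G) : Set G)) = 78 ∧
        K ⊓ Subgroup.centralizer ((B : Subgroup G) : Set G) = B ∧
        (((K ⊓ Subgroup.normalizer ((B : Subgroup G) : Set G)) ⊔ T).subgroupOf
          (Subgroup.normalizer ((B : Subgroup G) : Set G))).index = 2 := by
  haveI : Fact (Nat.Prime 13) := ⟨by norm_num⟩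
  haveI : Fact (Nat.Prime 3) := ⟨Nat.prime_three⟩
  obtain ⟨T, hT⟩ : ∃ T, T = Subgroup.closure ({a, b, c, d} : Set G) := ⟨_, rfl⟩
  obtain ⟨K, hK⟩ : ∃ K, K = Subgroup.centralizer (T : Set G) := ⟨_, rfl⟩
  obtain ⟨e⟩ : Nonempty (↥K ≃* ↥(Cfsg.Lie.chevG2.group (ZMod 3))) := by
    rw [hK, hT]; exact he
  refine ⟨fun X Y hX hY => M22Sylow.conj_of_card
      (MTwentyFourSylow.not_sq_dvd24 hD hprim ht (by norm_num)) hX hY,
    a, b, c, d, T, K, by simp [ha, hb, hc, hd], had, hbc, hab, hac, hdb, hdc, hT, hK, ⟨e⟩,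
    fun B hBK hB => ?_⟩
  obtain ⟨hF78, hFC⟩ := g2_normalizer e hB hBK
  obtain ⟨N, hN⟩ : ∃ N, N = Subgroup.normalizer ((B : Subgroup G) : Set G) := ⟨_, rfl⟩
  rw [← hN]
  rw [← hN] at hF78
  have haT : a ∈ T := hT ▸ Subgroup.subset_closure (by simp)
  have hbT : b ∈ T := hT ▸ Subgroup.subset_closure (by simp)
  have hcT : c ∈ T := hT ▸ Subgroup.subset_closure (by simp)
  have hdT : d ∈ T := hT ▸ Subgroup.subset_closure (by simp)
  have hPT : Subgroup.closure ({a, d} : Set G) ≤ T := (Subgroup.closure_le _).2 (by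
    rintro z (rfl | rfl) <;> assumption)
  have hQT : Subgroup.closure ({b, c} : Set G) ≤ T := (Subgroup.closure_le _).2 (by
    rintro z (rfl | rfl) <;> assumption)
  have hTC : T ≤ Subgroup.centralizer (B : Set G) :=
    Subgroup.le_centralizer_iff.1 (hBK.trans hK.le)
  have hTN : T ≤ N := hTC.trans (hN ▸ Subgroup.centralizer_le_normalizer (B : Set G))
  -- conjugation by normalizing elements preserves the six members
  have hsix := fixed_members hD hprim ht hB ha hb hc hd had hbc hab hac hdb hdc (hTC haT) (hTC hbT)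
    (hTC hcT) (hTC hdT)
  have himg : ∀ n ∈ N, ∀ x ∈ triple a d ∪ triple b c, n * x * n⁻¹ ∈ triple a d ∪ triple b c := by
    intro n hn x hx
    have hxD : x ∈ D := hx.elim (fun h => triple_subset_D hD ha hd h) fun h => triple_subset_D hD hb hc h
    have hxB : x ∈ Subgroup.centralizer (B : Set G) := hTC (hx.elim
      (fun h => hPT (triple_subset_closure hD a d h)) fun h => hQT (triple_subset_closure hD b c h))
    refine hsix ⟨hD.2.1 n x hxD, fun w hw => ?_⟩
    have hw' : n⁻¹ * w * n ∈ B := by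
      simpa only [inv_inv] using (Subgroup.mem_normalizer_iff.1 (inv_mem (hN ▸ hn)) w).1 hw
    calc w * (n * x * n⁻¹) = n * ((n⁻¹ * w * n) * x) * n⁻¹ := by group
      _ = n * (x * (n⁻¹ * w * n)) * n⁻¹ := by rw [hxB _ hw']
      _ = n * x * n⁻¹ * w := by group
  have hNT : ∀ n ∈ N, ∀ x ∈ T, n * x * n⁻¹ ∈ T := by
    intro n hn x hx
    have h : T ≤ T.comap (MulAut.conj n).toMonoidHom := by
      conv_lhs => rw [hT]
      refine (Subgroup.closure_le _).2 fun z hz => ?_
      have hz' : z ∈ triple a d ∪ triple b c := by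
        rcases hz with rfl | rfl | rfl | rfl
        exacts [Or.inl (Or.inl rfl), Or.inr (Or.inl rfl), Or.inr (Or.inr (Or.inl rfl)),
          Or.inl (Or.inr (Or.inl rfl))]
      exact (himg n hn z hz').elim (fun h => hPT (triple_subset_closure hD a d h))
        fun h => hQT (triple_subset_closure hD b c h)
    exact h hx
  have hnK : ∀ n : G, (∀ x ∈ T, n * x * n⁻¹ ∈ T) → ∀ k ∈ K, n * k * n⁻¹ ∈ K := by
    intro n hn k hk
    rw [hK] at hk ⊢
    intro y hy
    have hy' : n⁻¹ * y * n ∈ T := by
      have hmem : n ∈ Subgroup.normalizer (T : Set G) := Subgroup.mem_normalizer_fintype hn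
      simpa only [inv_inv] using (Subgroup.mem_normalizer_iff.1 (inv_mem hmem) y).1 hy
    calc y * (n * k * n⁻¹) = n * ((n⁻¹ * y * n) * k) * n⁻¹ := by group
      _ = n * (k * (n⁻¹ * y * n)) * n⁻¹ := by rw [hk _ hy']
      _ = n * k * n⁻¹ * y := by group
  refine ⟨fun n hn => Subgroup.mem_normalizer_fintype (hnK n (hNT n hn)), hF78, hFC, ?_⟩
  -- the swap
  obtain ⟨g, hg1, hg2⟩ := hswap
  have hgT : ∀ x ∈ T, g * x * g⁻¹ ∈ T := by
    intro x hx
    have h : T ≤ T.comap (MulAut.conj g).toMonoidHom := by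
      conv_lhs => rw [hT]
      refine (Subgroup.closure_le _).2 fun z hz => ?_
      rcases hz with rfl | rfl | rfl | rfl
      exacts [hQT (hg1 _ (Or.inl rfl)), hPT (hg2 _ (Or.inl rfl)), hPT (hg2 _ (Or.inr rfl)),
        hQT (hg1 _ (Or.inr rfl))]
    exact h hx
  have hgB : B.map (MulAut.conj g).toMonoidHom ≤ K := by
    rintro _ ⟨y, hy, rfl⟩
    exact hnK g hgT y (hBK hy)
  obtain ⟨k, hk⟩ := M22Sylow.conj_of_card (G := K) (p := 13)
    (X := (B.map (MulAut.conj g).toMonoidHom).subgroupOf K) (Y := B.subgroupOf K)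
    (by rw [Nat.card_congr e.toEquiv, CfsgLib.OrderDegrees.G2Three.card_eq (ZMod.card 3)]; norm_num)
    (by rw [Nat.card_congr (Subgroup.subgroupOfEquivOfLe hgB).toEquiv,
      ← Nat.card_congr (Subgroup.equivMapOfInjective B _ (MulAut.conj g).injective).toEquiv, hB])
    (by rw [Nat.card_congr (Subgroup.subgroupOfEquivOfLe hBK).toEquiv, hB])
  obtain ⟨w, hw⟩ : ∃ w, w = (k : G) * g := ⟨_, rfl⟩
  have hwN : w ∈ N := by
    rw [hN]
    refine Subgroup.mem_normalizer_fintype fun y hy => ?_
    have h1 : (⟨g * y * g⁻¹, hgB ⟨y, hy, rfl⟩⟩ : K) ∈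
        (B.map (MulAut.conj g).toMonoidHom).subgroupOf K :=
      Subgroup.mem_subgroupOf.2 ⟨y, hy, rfl⟩
    have h2 := hk.le ⟨_, h1, rfl⟩
    rw [Subgroup.mem_subgroupOf] at h2
    simpa [hw, mul_assoc] using h2
  have hkT : ∀ x ∈ T, (k : G) * x * (k : G)⁻¹ = x := fun x hx => by
    rw [← ((hK ▸ k.2 : (k : G) ∈ Subgroup.centralizer (T : Set G)) x hx),
      mul_inv_cancel_right]
  -- the two classes of normalizing elements
  obtain ⟨M, hM⟩ : ∃ M, M = (K ⊓ N) ⊔ T := ⟨_, rfl⟩
  rw [← hM]
  have hMN : M ≤ N := hM ▸ sup_le inf_le_right hTN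
  have hKc : ∀ x ∈ T, ∀ u ∈ K, Commute x u := fun x hx u hu => (hK ▸ hu) x hx
  have hMP : ∀ m ∈ M, ∀ x ∈ Subgroup.closure ({a, d} : Set G),
      m * x * m⁻¹ ∈ Subgroup.closure ({a, d} : Set G) := by
    intro m hm
    have hle : M ≤ Subgroup.normalizer ((Subgroup.closure ({a, d} : Set G) : Subgroup G) : Set G) := by
      refine hM ▸ sup_le (fun u hu => Subgroup.centralizer_le_normalizer _ fun x hx =>
        hKc x (hPT hx) u hu.1) (hT ▸ (Subgroup.closure_le _).2 fun z hz => ?_)
      rcases hz with rfl | rfl | rfl | rfl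
      · exact Subgroup.le_normalizer (Subgroup.subset_closure (Or.inl rfl))
      · refine Subgroup.centralizer_le_normalizer _ ?_
        exact closure_le_centralizer_pair hab hdb
      · refine Subgroup.centralizer_le_normalizer _ ?_
        exact closure_le_centralizer_pair hac hdc
      · exact Subgroup.le_normalizer (Subgroup.subset_closure (Or.inr rfl))
    exact fun x hx => (Subgroup.mem_normalizer_iff.1 (hle hm) x).1 hx
  have hdisj : ∀ x ∈ triple b c, x ∉ Subgroup.closure ({a, d} : Set G) := by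
    intro x hx hxP
    have hxD := triple_subset_D hD hb hc hx
    have h1 : Commute x a := by
      exact ((closure_le_centralizer_pair hab.symm hac.symm) x (triple_subset_closure hD b c hx))
    have h2 : Commute x d :=
      (closure_le_centralizer_pair hdb.symm hdc.symm) x (triple_subset_closure hD b c hx)
    rcases mem_triple_of_mem_closure hD ha hd had hxD hxP with rfl | rfl | rfl
    · exact had h2
    · exact had h1.symm
    · refine had ?_
      have haa := sq_eq_one hD.1 ha
      have h3 : a * d * a * a = a * (a * d * a) := h1.eq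
      rw [mul_assoc (a * d), haa, mul_one, ← mul_assoc, ← mul_assoc, haa, one_mul] at h3
      exact h3
  have hpure : ∀ n ∈ N, n * a * n⁻¹ ∈ triple a d → n ∈ M := by
    intro n hn hna
    have hab' : ∀ {x y : G}, Commute x y → Commute (n * x * n⁻¹) (n * y * n⁻¹) := fun h =>
      (conj_commute_iff n _ _).2 h
    have hcomm : ∀ p ∈ triple a d, ∀ q ∈ triple b c, Commute p q := fun p hp q hq => by
      have h1 : Subgroup.closure ({a, d} : Set G) ≤ Subgroup.centralizer ({q} : Set G) :=
        (Subgroup.closure_le _).2 (by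
          rintro z (rfl | rfl)
          · exact Subgroup.mem_centralizer_singleton_iff.2
              ((closure_le_centralizer_pair hab.symm hac.symm) q (triple_subset_closure hD b c hq)).symm.eq
          · exact Subgroup.mem_centralizer_singleton_iff.2
              ((closure_le_centralizer_pair hdb.symm hdc.symm) q (triple_subset_closure hD b c hq)).symm.eq)
      exact Subgroup.mem_centralizer_singleton_iff.1 (h1 (triple_subset_closure hD a d hp))
    have hnd : n * d * n⁻¹ ∈ triple a d := by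
      rcases himg n hn d (Or.inl (Or.inr (Or.inl rfl))) with h | h
      · exact h
      · exact absurd ((conj_commute_iff n _ _).1 (hcomm _ hna _ h)) had
    have hnb : ∀ y ∈ ({b, c} : Set G), n * y * n⁻¹ ∈ triple b c := by
      intro y hy
      have hay : Commute a y ∧ Commute d y := by
        rcases hy with rfl | rfl
        exacts [⟨hab, hdb⟩, ⟨hac, hdc⟩]
      have hyQ : y ∈ triple b c := hy.elim (fun e => Or.inl e) fun e => Or.inr (Or.inl e)
      rcases himg n hn y (Or.inr hyQ) with h | h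
      · exfalso
        have hne : ∀ p ∈ triple a d, n * y * n⁻¹ ≠ n * p * n⁻¹ := fun p hp k => by
          have k' := mul_left_cancel (mul_right_cancel k)
          exact hdisj y hyQ (k' ▸ triple_subset_closure hD a d hp)
        -- two different members of a triple never commute
        obtain ⟨t, -, ht1, ht2⟩ := exists_move hD ha hd had hna h (fun k =>
          hne a (Or.inl rfl) k.symm)
        exact had ((conj_commute_iff t a d).1 (by rw [ht1, ht2]; exact hab' hay.1))
      · exact h
    obtain ⟨t, htP, ht1, ht2⟩ := exists_move hD ha hd had hna hnd fun k =>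
      had (by rw [mul_left_cancel (mul_right_cancel k)])
    obtain ⟨s, hsQ, hs1, hs2⟩ := exists_move hD hb hc hbc (hnb b (Or.inl rfl)) (hnb c (Or.inr rfl))
      fun k => hbc (by rw [mul_left_cancel (mul_right_cancel k)])
    have hts : ∀ y ∈ ({b, c} : Set G), t * y * t⁻¹ = y := fun y hy => by
      have h1 : Commute a y ∧ Commute d y := by
        rcases hy with rfl | rfl
        exacts [⟨hab, hdb⟩, ⟨hac, hdc⟩]
      rw [((closure_le_centralizer_pair h1.1 h1.2) t htP).eq, mul_inv_cancel_right]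
    have hst : ∀ y ∈ ({a, d} : Set G), s * y * s⁻¹ = y := fun y hy => by
      have h1 : Commute b y ∧ Commute c y := by
        rcases hy with rfl | rfl
        exacts [⟨hab.symm, hac.symm⟩, ⟨hdb.symm, hdc.symm⟩]
      rw [((closure_le_centralizer_pair h1.1 h1.2) s hsQ).eq, mul_inv_cancel_right]
    have hstT : s * t ∈ T := mul_mem (hQT hsQ) (hPT htP)
    rw [show n = (s * t) * ((s * t)⁻¹ * n) by group]
    refine hM ▸ mul_mem (Subgroup.mem_sup_right hstT) (Subgroup.mem_sup_left (Subgroup.mem_inf.2 ⟨?_, N.mul_mem (N.inv_mem (hTN hstT)) hn⟩))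
    have key : ∀ y : G, n * y * n⁻¹ = (s * t) * y * (s * t)⁻¹ →
        Commute y ((s * t)⁻¹ * n) := fun y hy => by
      show y * ((s * t)⁻¹ * n) = (s * t)⁻¹ * n * y
      calc y * ((s * t)⁻¹ * n) = (s * t)⁻¹ * ((s * t) * y * (s * t)⁻¹) * n := by group
        _ = (s * t)⁻¹ * n * y := by rw [← hy]; group
    rw [hK, hT, Subgroup.centralizer_closure]
    intro y hy
    refine key y ?_
    rw [show s * t * y * (s * t)⁻¹ = s * (t * y * t⁻¹) * s⁻¹ by group]
    rcases hy with rfl | rfl | rfl | rfl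
    · rw [ht1]
      exact (conj_fix_of_closure hst (triple_subset_closure hD _ _ hna)).symm
    · rw [hts _ (Or.inl rfl), hs1]
    · rw [hts _ (Or.inr rfl), hs2]
    · rw [ht2]
      exact (conj_fix_of_closure hst (triple_subset_closure hD _ _ hnd)).symm
  rw [Subgroup.index_eq_two_iff]
  refine ⟨⟨w, hwN⟩, fun n => ?_⟩
  simp only [Subgroup.mem_subgroupOf, Subgroup.coe_mul]
  have hwa : ∀ x ∈ Subgroup.closure ({b, c} : Set G), w * x * w⁻¹ ∈ Subgroup.closure ({a, d} : Set G) := by
    intro x hx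
    have h1 := conj_mem_triple hD hb hc ha hd had (hg2 b (Or.inl rfl)) (hg2 c (Or.inr rfl)) hx
    rw [hw, show (k : G) * g * x * ((k : G) * g)⁻¹ = (k : G) * (g * x * g⁻¹) * (k : G)⁻¹ by group,
      hkT _ (hPT h1)]
    exact h1
  have hwb : w * a * w⁻¹ ∈ triple b c := by
    have h1 := hg1 a (Or.inl rfl)
    have h2 : w * a * w⁻¹ = g * a * g⁻¹ := by
      rw [hw, show (k : G) * g * a * ((k : G) * g)⁻¹ = (k : G) * (g * a * g⁻¹) * (k : G)⁻¹ by group,
        hkT _ (hQT h1)]
    rw [h2]
    exact mem_triple_of_mem_closure hD hb hc hbc (hD.2.1 g a ha) h1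
  have haP : a ∈ Subgroup.closure ({a, d} : Set G) := Subgroup.subset_closure (Or.inl rfl)
  by_cases hna : (n : G) * a * (n : G)⁻¹ ∈ triple a d
  · refine Or.inr ⟨hpure _ n.2 hna, fun h => ?_⟩
    have h1 : ((n : G)⁻¹ * ((n : G) * w)) ∈ M := mul_mem (inv_mem (hpure _ n.2 hna)) h
    rw [inv_mul_cancel_left] at h1
    exact hdisj _ hwb (hMP w h1 a haP)
  · refine Or.inl ⟨hpure _ (mul_mem n.2 hwN) ?_, fun h => hna ?_⟩
    · have hq : (n : G) * a * (n : G)⁻¹ ∈ triple b c :=
        (himg _ n.2 a (Or.inl (Or.inl rfl))).resolve_left hna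
      rw [show (n : G) * w * a * ((n : G) * w)⁻¹ = (n : G) * (w * a * w⁻¹) * (n : G)⁻¹ by group]
      rcases himg _ n.2 _ (Or.inr hwb) with h | h
      · exact h
      · exfalso
        obtain ⟨t, -, ht1, ht2⟩ := exists_move hD hb hc hbc hq h fun k => by
          have k' := mul_left_cancel (mul_right_cancel k)
          exact hdisj _ hwb (k' ▸ haP)
        refine hbc ((conj_commute_iff t b c).1 ?_)
        rw [ht1, ht2]
        refine (conj_commute_iff (n : G) _ _).2 ?_
        exact (closure_le_centralizer_pair hab.symm hac.symm _ (triple_subset_closure hD b c hwb)).symm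
    · exact mem_triple_of_mem_closure hD ha hd had (hD.2.1 _ a ha) (hMP _ h a haP)
where
  closure_le_centralizer_pair {x y z : G} (h1 : Commute x z) (h2 : Commute y z) :
      ∀ u ∈ Subgroup.closure ({x, y} : Set G), Commute u z := fun u hu =>
    Subgroup.mem_centralizer_singleton_iff.1 ((Subgroup.closure_le _).2 (by
      rintro v (rfl | rfl)
      exacts [Subgroup.mem_centralizer_singleton_iff.2 h1.eq,
        Subgroup.mem_centralizer_singleton_iff.2 h2.eq]) hu)
  conj_fix_of_closure {x y s z : G} (h : ∀ v ∈ ({x, y} : Set G), s * v * s⁻¹ = v)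
      (hz : z ∈ Subgroup.closure ({x, y} : Set G)) : s * z * s⁻¹ = z := by
    have hle : Subgroup.closure ({x, y} : Set G) ≤ Subgroup.centralizer ({s} : Set G) :=
      (Subgroup.closure_le _).2 fun v hv => Subgroup.mem_centralizer_singleton_iff.2
        (mul_inv_eq_iff_eq_mul.1 (h v hv)).symm
    rw [← Subgroup.mem_centralizer_singleton_iff.1 (hle hz), mul_inv_cancel_right]

end CfsgLib.Fischer.PairTwentyFour.Thirteen
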